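import Mathlib

/-! Groups of order 64 with a self-centralizing element of order 8 conjugate to its odd powers: the presentations. -/

set_option autoImplicit false

namespace Cfsg.Agent.GO.Fg

structure FR {G : Type*} [Group G] (a k l : ℕ) (f y g x : G) : Prop where
  f8 : f ^ 8 = 1
  z1 : f ^ 4 ≠ 1
  yy : y * y = 1
  yf : y * f = f ^ 5 * y
  gf : g * f = f ^ 3 * y * g
  gy : g * y = y * g
  xf : x * f = f ^ 7 * x
  xy : x * y = y * x
  gg : g * g = y * f ^ (2 * k)
  xx : x * x = f ^ (4 * a)
  xg : x * g = y * f ^ (2 * l) * g * x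

end Cfsg.Agent.GO.Fg
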