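import Cfsg.Agent.GO.Fg0
import Cfsg.Agent.GO.Fg1

/-! The tables of `GO.Fg1` describe the groups presented in `GO.Fg0`. -/

set_option autoImplicit false
set_option maxRecDepth 100000

namespace Cfsg.Agent.GO.Fg

def lf (n c : ℕ) : ℕ := (c % 8 + n) % 8 + 8 * (c / 8)
def ly (c : ℕ) : ℕ := 5 * (c % 8) % 8 + 8 * ((c / 8 + 1) % 2) + 16 * (c / 16)
def lgD (k c : ℕ) : ℕ := if c / 16 % 2 = 0 then 8 * (c / 8 % 2) + 16 + 32 * (c / 32 % 2)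
  else if c / 8 % 2 = 0 then ly (lf (2 * k) (32 * (c / 32 % 2))) else lf (2 * k) (32 * (c / 32 % 2))
def lg (k c : ℕ) : ℕ := lf (2 * (c % 8 / 2)) (if c % 2 = 0 then lgD k c else lf 3 (ly (lgD k c)))
def lxE (a c : ℕ) : ℕ := if c / 32 % 2 = 0 then 16 * (c / 16 % 2) + 32 else lf (4 * a) (16 * (c / 16 % 2))
def lxF (a l c : ℕ) : ℕ := if c / 16 % 2 = 0 then lxE a c else ly (lf (2 * l) (lxE a c))
def lx (a l c : ℕ) : ℕ := lf (7 * (c % 8)) (if c / 8 % 2 = 0 then lxF a l c else ly (lxF a l c))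
def pre (a : ℕ) : ℕ := if a % 8 ≠ 0 then 1 else if a % 16 ≠ 0 then 8 else if a % 32 ≠ 0 then 16 else 32

theorem ck1 : ∀ n < 32, ∀ c < 64, mu n 0 c = c ∧ mu n 1 c = lf 1 c ∧ mu n 8 c = ly c ∧
    mu n 16 c = lg (n / 4 % 4) c ∧ mu n 32 c = lx (n / 16) (n % 4) c ∧
    (c ≠ 0 → mu n (pre c) (c - pre c) = c) := by
  decide +kernel

theorem ck2 : ∀ n < 32, ∀ a < 64, a ≠ 0 → ∀ b < 64, mu n a b = mu n (pre a) (mu n (a - pre a) b) := by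
  decide +kernel

theorem ck3 : ∀ n < 32, n ∈ [0, 10] ∨ n ∈ [2, 5, 7, 8, 13, 15, 16, 18, 21, 23, 24, 26, 29, 31] ∨
    mu n 32 (mu n 16 16) = mu n 4 (mu n (mu n 32 16) 16) := by
  decide +kernel

def iv (n c : ℕ) : ℕ := mu n (mu n (mu n c c) (mu n c c)) (mu n (mu n c c) c)
def cmq (n c h : ℕ) : ℕ := mu n (mu n (iv n h) c) (mu n h (iv n c))

theorem ck4 : ∀ n ∈ [0, 10, 2, 5, 7, 8, 13, 15, 16, 18, 21, 23, 24, 26, 29, 31], ∀ c < 64,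
    mu n (iv n c) c = 0 ∧ (c = 0 ∨ c = 4 ∨ ∃ h ∈ [1, 8, 16, 32], cmq n c h = 4 ∨
      ∃ h' ∈ [1, 8, 16, 32], cmq n (cmq n c h) h' = 4) := by
  decide +kernel

theorem ck5 : ∀ n ∈ [0, 10, 2, 5, 7, 8, 13, 15, 16, 18, 21, 23, 24, 26, 29, 31], ∀ a < 64, ∀ b < 64,
    mu n (iv n a) b = 0 → a = b := by
  decide +kernel

end Cfsg.Agent.GO.Fg
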