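import Cfsg.Agent.GO.Fg2

/-! The tables of `GO.Fg1` describe the groups presented in `GO.Fg0`. -/

set_option autoImplicit false

namespace Cfsg.Agent.GO.Fg

variable {G : Type*} [Group G] {a k l : ℕ} {f y g x : G}

def nv (f y g x : G) (c : ℕ) : G := f ^ (c % 8) * y ^ (c / 8 % 2) * g ^ (c / 16 % 2) * x ^ (c / 32 % 2)

theorem FR.fm (h : FR a k l f y g x) (i : ℕ) : f ^ (i % 8) = f ^ i := (pow_eq_pow_mod i h.f8).symm

theorem FR.ym (h : FR a k l f y g x) (i : ℕ) : y ^ (i % 2) = y ^ i :=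
  (pow_eq_pow_mod i (by rw [pow_two, h.yy])).symm

theorem FR.yi (h : FR a k l f y g x) (i : ℕ) : y * f ^ i = f ^ (5 * i) * y := by
  rw [pow_mul]; exact SemiconjBy.pow_right h.yf i

theorem FR.xi (h : FR a k l f y g x) (i : ℕ) : x * f ^ i = f ^ (7 * i) * x := by
  rw [pow_mul]; exact SemiconjBy.pow_right h.xf i

theorem FR.g2 (h : FR a k l f y g x) (i : ℕ) : g * f ^ (2 * i) = f ^ (2 * i) * g := by
  have e : (f ^ 3 * y) ^ 2 = f ^ 2 := by
    rw [pow_two, mul_assoc, ← mul_assoc y, h.yi, mul_assoc, h.yy, mul_one, ← pow_add, ← h.fm]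
  have : SemiconjBy g f (f ^ 3 * y) := h.gf
  have := this.pow_right 2
  rw [e] at this
  rw [pow_mul]
  exact this.pow_right i

theorem FR.vf (h : FR a k l f y g x) (n c : ℕ) : nv f y g x (lf n c) = f ^ n * nv f y g x c := by
  have e1 : lf n c % 8 = (n + c % 8) % 8 := by unfold lf; omega
  have e2 : lf n c / 8 = c / 8 := by unfold lf; omega
  have e3 : lf n c / 16 = c / 16 := by unfold lf; omega
  have e4 : lf n c / 32 = c / 32 := by unfold lf; omega
  simp only [nv, e1, e2, e3, e4, h.fm (n + c % 8), pow_add, mul_assoc]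

theorem FR.vy (h : FR a k l f y g x) (c : ℕ) : nv f y g x (ly c) = y * nv f y g x c := by
  have r : 5 * (c % 8) % 8 < 8 := Nat.mod_lt _ (by norm_num)
  have e1 : ly c % 8 = (5 * (c % 8)) % 8 := by unfold ly; generalize 5 * (c % 8) % 8 = t at r; omega
  have e2 : ly c / 8 % 2 = (c / 8 % 2 + 1) % 2 := by unfold ly; generalize 5 * (c % 8) % 8 = t at r; omega
  have e3 : ly c / 16 = c / 16 := by unfold ly; generalize 5 * (c % 8) % 8 = t at r; omega
  have e4 : ly c / 32 = c / 32 := by rw [show 32 = 16 * 2 from rfl, ← Nat.div_div_eq_div_mul, e3, Nat.div_div_eq_div_mul]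
  simp only [nv, e1, e2, e3, e4, h.fm (5 * (c % 8)), h.ym (c / 8 % 2 + 1), ← mul_assoc, h.yi, pow_succ' y]

theorem FR.vgD (h : FR a k l f y g x) (c : ℕ) :
    nv f y g x (lgD k c) = g * (y ^ (c / 8 % 2) * g ^ (c / 16 % 2) * x ^ (c / 32 % 2)) := by
  have h1 := Nat.mod_two_eq_zero_or_one (c / 8)
  have h2 := Nat.mod_two_eq_zero_or_one (c / 16)
  have h3 := Nat.mod_two_eq_zero_or_one (c / 32)
  have e : y * g * g = f ^ (2 * k) := by rw [mul_assoc, h.gg, ← mul_assoc, h.yy, one_mul]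
  rcases h1 with h1 | h1 <;> rcases h2 with h2 | h2 <;> rcases h3 with h3 | h3 <;>
    simp [lgD, h1, h2, h3, h.vf, h.vy] <;> simp [nv, ← mul_assoc, h.gy, h.gg, e]

theorem FR.vg (h : FR a k l f y g x) (c : ℕ) : nv f y g x (lg k c) = g * nv f y g x c := by
  have e : c % 8 = 2 * (c % 8 / 2) + c % 2 := by omega
  have e' : g * nv f y g x c = f ^ (2 * (c % 8 / 2)) * (g * f ^ (c % 2) *
      (y ^ (c / 8 % 2) * g ^ (c / 16 % 2) * x ^ (c / 32 % 2))) := by
    unfold nv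
    conv_lhs => rw [e, pow_add]
    simp only [← mul_assoc, h.g2]
  rw [lg, h.vf, e']
  rcases Nat.mod_two_eq_zero_or_one c with h1 | h1
  · simp [h1, h.vgD]
  · simp [h1, h.vgD, h.vf, h.vy, h.gf, mul_assoc]

theorem FR.vxF (h : FR a k l f y g x) (c : ℕ) :
    nv f y g x (lxF a l c) = x * (g ^ (c / 16 % 2) * x ^ (c / 32 % 2)) := by
  have h2 := Nat.mod_two_eq_zero_or_one (c / 16)
  have h3 := Nat.mod_two_eq_zero_or_one (c / 32)
  have e : g * f ^ (4 * a) = f ^ (4 * a) * g := by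
    have := h.g2 (2 * a)
    rwa [← mul_assoc] at this
  rcases h2 with h2 | h2 <;> rcases h3 with h3 | h3 <;>
    simp [lxF, lxE, h2, h3, h.vf, h.vy] <;> simp [nv, ← mul_assoc, h.xg, h.xx]
  rw [mul_assoc _ x, h.xx, mul_assoc _ g, e, ← mul_assoc]

theorem FR.vx (h : FR a k l f y g x) (c : ℕ) : nv f y g x (lx a l c) = x * nv f y g x c := by
  rw [lx, h.vf]
  rcases Nat.mod_two_eq_zero_or_one (c / 8) with h1 | h1
  · simp only [h1, if_true, h.vxF]
    simp only [nv, h1, pow_zero, mul_one, ← mul_assoc, h.xi]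
  · simp only [h1, one_ne_zero, if_false, h.vy, h.vxF]
    simp only [nv, h1, pow_one, ← mul_assoc, h.xi]
    simp only [mul_assoc]
    rw [← mul_assoc x y, h.xy, mul_assoc]

theorem FR.vmul (h : FR a k l f y g x) (ha : a < 2) (hk : k < 4) (hl : l < 4) :
    ∀ c < 64, ∀ d < 64, nv f y g x (mu (16 * a + 4 * k + l) c d) = nv f y g x c * nv f y g x d := by
  have hn : 16 * a + 4 * k + l < 32 := by omega
  have ea : (16 * a + 4 * k + l) / 16 = a := by omega
  have ek : (16 * a + 4 * k + l) / 4 % 4 = k := by omega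
  have el : (16 * a + 4 * k + l) % 4 = l := by omega
  generalize 16 * a + 4 * k + l = n at hn ea ek el
  have g1 : ∀ c d, d < 64 → nv f y g x (mu n (pre c) d) = nv f y g x (pre c) * nv f y g x d := fun c d hd => by
    obtain ⟨-, k1, k2, k3, k4, -⟩ := ck1 n hn d hd
    unfold pre
    split_ifs
    · rw [k1, h.vf]; simp [nv]
    · rw [k2, h.vy]; simp [nv]
    · rw [k3, ek, h.vg]; simp [nv]
    · rw [k4, ea, el, h.vx]; simp [nv]
  intro c
  induction c using Nat.strong_induction_on with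
  | _ c ih =>
    intro hc d hd
    by_cases h0 : c = 0
    · subst h0
      rw [(ck1 n hn d hd).1]; simp [nv]
    · have hp : 0 < pre c := by unfold pre; split_ifs <;> omega
      rw [ck2 n hn c hc h0 d hd, g1 _ _ (mu_lt _ _ _), ih _ (by omega) (by omega) d hd, ← mul_assoc,
        ← g1 _ _ (by omega), (ck1 n hn c hc).2.2.2.2.2 h0]

theorem rP [Finite G] {P : Subgroup G} (hP : Nat.card P = 64) (hf : f ∈ P) (hy : y ∈ P) (hg : g ∈ P) (hx : x ∈ P)
    (h : FR a k l f y g x) (ha : a < 2) (hk : k < 4) (hl : l < 4) :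
    ((16 * a + 4 * k + l) ∈ [0, 10] ∨ (16 * a + 4 * k + l) ∈ [2, 5, 7, 8, 13, 15, 16, 18, 21, 23, 24, 26, 29, 31]) ∧
      Rp (16 * a + 4 * k + l) P (nv f y g x) := by
  have hm := h.vmul ha hk hl
  have hn : 16 * a + 4 * k + l < 32 := by omega
  generalize 16 * a + 4 * k + l = n at hn hm
  have z1 : nv f y g x 4 ≠ 1 := by simpa [nv] using h.z1
  have o1 : nv f y g x 0 = 1 := by simp [nv]
  have mem : ∀ c, nv f y g x c ∈ P := fun c =>
    P.mul_mem (P.mul_mem (P.mul_mem (P.pow_mem hf _) (P.pow_mem hy _)) (P.pow_mem hg _)) (P.pow_mem hx _)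
  generalize nv f y g x = v at hm z1 o1 mem
  have hc : n ∈ [0, 10] ∨ n ∈ [2, 5, 7, 8, 13, 15, 16, 18, 21, 23, 24, 26, 29, 31] := by
    rcases ck3 n hn with e | e | e
    · exact .inl e
    · exact .inr e
    · have := congrArg v e
      rw [hm _ (by norm_num) _ (mu_lt _ _ _), hm _ (by norm_num) _ (mu_lt _ _ _), hm _ (mu_lt _ _ _) _ (by norm_num),
        hm _ (by norm_num) _ (by norm_num), hm _ (by norm_num) _ (by norm_num), ← mul_assoc (v 32)] at this
      exact absurd (right_eq_mul.1 this) z1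
  have hn' : n ∈ [0, 10, 2, 5, 7, 8, 13, 15, 16, 18, 21, 23, 24, 26, 29, 31] := List.mem_append.2 hc
  have il : ∀ c, iv n c < 64 := fun c => mu_lt _ _ _
  have vi : ∀ c < 64, v (iv n c) = (v c)⁻¹ := fun c hc => by
    rw [eq_inv_iff_mul_eq_one, ← hm _ (il c) _ hc, (ck4 n hn' c hc).1, o1]
  have vc : ∀ c < 64, ∀ d ∈ [1, 8, 16, 32], v c = 1 → v (cmq n c d) = 1 := fun c hc d hd e => by
    have hd : d < 64 := by simp at hd; omega
    rw [cmq, hm _ (mu_lt _ _ _) _ (mu_lt _ _ _), hm _ (il d) _ hc, hm _ hd _ (il c), vi _ hc, vi _ hd, e]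
    simp
  have k1 : ∀ c < 64, v c = 1 → c = 0 := fun c hc e => by
    rcases (ck4 n hn' c hc).2 with e0 | rfl | ⟨d, hd, e0 | ⟨d', hd', e0⟩⟩
    · exact e0
    · exact absurd e z1
    · exact absurd (e0 ▸ vc c hc d hd e) z1
    · exact absurd (e0 ▸ vc _ (mu_lt _ _ _) d' hd' (vc c hc d hd e)) z1
  have inj : ∀ c < 64, ∀ d < 64, v c = v d → c = d := fun c hc d hd e =>
    ck5 n hn' c hc d hd (k1 _ (mu_lt _ _ _) (by rw [hm _ (il c) _ hd, vi _ hc, e, inv_mul_cancel]))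
  refine ⟨hc, o1, hm, inj, fun p => ⟨fun hp => ?_, fun ⟨c, _, e⟩ => e ▸ mem c⟩⟩
  have hb : Function.Bijective fun c : Fin 64 => (⟨v c, mem c⟩ : P) :=
    (Nat.bijective_iff_injective_and_card _).2
      ⟨fun c d e => Fin.ext (inj _ c.2 _ d.2 (congrArg Subtype.val e)), by simp [hP]⟩
  obtain ⟨c, e⟩ := hb.2 ⟨p, hp⟩
  exact ⟨c, c.2, congrArg Subtype.val e⟩

end Cfsg.Agent.GO.Fg
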