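import Cfsg.Agent.GO.Fs
import Cfsg.Agent.H3.Wreath
import Cfsg.Agent.H3.QD
import Cfsg.Agent.H3.Bridge
import Cfsg.Agent.H2.Pump

/-! Isolated involution in quasi-dihedral or wreathed Sylow subgroups. -/

set_option autoImplicit false
set_option linter.unusedSectionVars false
set_option linter.unusedVariables false

namespace Cfsg.Agent.GO

open Cfsg Subgroup Cfsg.Agent.FT Cfsg.Agent.GW
open scoped commutatorElement

universe u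

variable {G : Type u} [Group G] [Finite G] {D : Set G} {p : ℕ}
  {A B E H J K L M P Q R S T U V W X Y Z : Subgroup G} {a b d e g r s t v w x y z : G}

theorem nml_of_fix (hS : Syl 2 S ⊤) (h : ∀ w ∈ Z(S), ∀ g : G, g * w * g⁻¹ ∈ S → g * w * g⁻¹ = w) :
    (O[{2}ᶜ]((⊤ : Subgroup G)) ⊔ Z(S)).Normal := by
  have hO : (O[{2}ᶜ]((⊤ : Subgroup G))).Normal := by
    rw [H3.p'core_top (p := 2) (hp := ⟨Nat.prime_two⟩)]
    exact Subgroup.sSup_normal _ fun _ h => h.1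
  rw [← normalizer_eq_top_iff, eq_top_iff]
  intro g _
  refine FT.mem_nrm.2 fun u hu => ?_
  obtain ⟨o, ho, w, hw, rfl⟩ := mem_sup_of_normal_left.1 hu
  have h1 := zstar_rel hS hw.1 (fun g _ => h w hw g)
  have h2 : ⁅g, w⁆ ∈ O[{2}ᶜ]((⊤ : Subgroup G)) :=
    h1 (commutator_mem_commutator (mem_top g) (mem_zpowers w))
  have e : g * (o * w) * g⁻¹ = (g * o * g⁻¹) * ⁅g, w⁆ * w := by rw [commutatorElement_def]; group
  rw [e]
  exact mul_mem (mem_sup_left (mul_mem (hO.conj_mem o ho g) h2)) (mem_sup_right hw)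

theorem iso_cen (hz : IsIsolatedInvolution z) (hS : PGrp 2 S) (hzS : z ∈ S) : z ∈ Z(S) := by
  haveI : Fact (Nat.Prime 2) := ⟨Nat.prime_two⟩
  by_contra hn
  have hlt : S ⊓ C[z] < S := lt_of_le_of_ne inf_le_left fun e => hn ⟨hzS, FT.mem_cen.2 fun s hs => by
    have : s ∈ S ⊓ C[z] := e.symm ▸ hs
    exact (FT.mem_cen1.1 this.2)⟩
  obtain ⟨g, hg, hg'⟩ := SetLike.exists_of_lt (hS.nil.lt_subnorm hlt)
  have h1 : g * z * g⁻¹ ∈ S ⊓ C[z] := FT.mem_nrm.1 hg.2 z ⟨hzS, FT.mem_cen1.2 rfl⟩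
  have h2 := hz.2 g (FT.mem_cen1.1 h1.2).symm
  exact hg' ⟨hg.1, FT.mem_cen1.2 (by rw [← mul_inv_eq_iff_eq_mul]; exact h2)⟩

theorem s1239 (hS : Syl 2 S ⊤) (h : IsQuasiDihedral S ∨ IsWreathed S) (hzS : z ∈ S)
    (hz : IsIsolatedInvolution z) : (O[{2}ᶜ]((⊤ : Subgroup G)) ⊔ Z(S)).Normal := by
  haveI : Fact (Nat.Prime 2) := ⟨Nat.prime_two⟩
  have hc := iso_cen hz hS.pi hzS
  have hz2 : z ^ 2 = 1 := hz.1 ▸ pow_orderOf_eq_one z
  have hz1 : z ≠ 1 := by rintro rfl; simpa using hz.1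
  have hfix : ∀ g : G, g * z * g⁻¹ ∈ S → g * z * g⁻¹ = z := fun g hg =>
    hz.2 g (FT.mem_cen.1 hc.2 _ hg).symm
  refine nml_of_fix hS fun w hw g hg => ?_
  rcases h with h | h
  · obtain ⟨a, b, m, h⟩ := H3.exists_mcs h
    have e := h.toMC.center
    have e1 : z = a ^ 2 ^ (m - 1) := h.toMC.eq_z (H3.zpowers_pow_le _ _ (e ▸ hc)) hz2 hz1
    rw [e, ← e1] at hw
    rcases (H3.mem_zpowers_two hz2).1 hw with rfl | rfl
    · simp
    · exact hfix g hg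
  · obtain ⟨x, y, t, n, h⟩ := H3.exists_wr h
    have e := h.center
    have e1 : z = (x * y) ^ 2 ^ (n - 1) := (h.eq_z (e ▸ hc) hz2).resolve_left hz1
    refine H3.alp_fix hS hw (fun B hB hC g hg ho hn => ?_) hg
    rcases h.oa hB hC ⟨g, hg, ho, hn⟩ with rfl | ⟨s, hs, rfl⟩
    · exfalso
      refine hn (H3.odd_ohm (h.pGrp.mono h.U_le) h.ab_U hg ho ?_)
      have hzU : z ∈ ⟪x⟫ ⊔ ⟪y⟫ := H3.Wr.w_U x y (e ▸ hc)
      have hgz : g * z * g⁻¹ = z := hfix g (h.U_le (FT.mem_nrm.1 hg z hzU))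
      have hN : g ∈ N(Ω[2](⟪x⟫ ⊔ ⟪y⟫)) := zpowers_le.1 (norms_Ohm 2 (zpowers_le.2 hg))
      have hle : Ω[2](⟪x⟫ ⊔ ⟪y⟫) ≤ ⟪x⟫ ⊔ ⟪y⟫ := Ohm_le _ _
      have hab : Ab Ω[2](⟪x⟫ ⊔ ⟪y⟫) := h.ab_U.mono hle
      have hzO : ⟪z⟫ ≤ Ω[2](⟪x⟫ ⊔ ⟪y⟫) := by rw [h.Ohm_U, e1]; exact le_sup_left
      refine H3.odd_step (W := ⟪z⟫) (x := x ^ 2 ^ (n - 1)) (h.pGrp.mono (hle.trans h.U_le)) hN ho
        (hab.nml hzO) ?_ (by rw [h.Ohm_U, e1])
      rw [cen_zpowers]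
      exact FT.mem_cen1.2 (by rw [← mul_inv_eq_iff_eq_mul]; exact hgz)
    · have := h.odd_V hs hg ho
      rw [← FT.mem_cen.1 this w (e ▸ hw), mul_inv_cancel_right]

end Cfsg.Agent.GO
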