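import Cfsg.Agent.GO.Su

/-! The Sylow 2-subgroup of the three-dimensional unitary group in characteristic two, II. -/

set_option autoImplicit false
set_option linter.unusedSectionVars false
set_option linter.unusedVariables false

namespace Cfsg.Agent.GO

open Cfsg Subgroup Cfsg.Agent.FT Cfsg.Agent.GW
open scoped commutatorElement

universe u

open H11 H18

variable {F : Type*} [Field F] [CharP F 2] {σ : F →+* F} {q : ℕ}

namespace UH

variable {X : Type*} [Group X] {cx cy : X → F} (h : UH σ cx cy) {g k : X}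
include h

theorem card_cen (hq : QConj σ q) : Nat.card (center X) = q := by
  rw [← hq.card_fixed]
  refine Nat.card_congr (Equiv.ofBijective (fun z => ⟨cy z, h.fix ((h.mem_cen hq).1 z.2)⟩) ⟨fun a b e => ?_, fun c => ?_⟩)
  · exact Subtype.ext (h.ext _ _ (((h.mem_cen hq).1 a.2).trans ((h.mem_cen hq).1 b.2).symm) (congrArg Subtype.val e))
  · obtain ⟨g, h1, h2⟩ := h.exz c.2
    exact ⟨⟨g, h.cen h1⟩, Subtype.ext h2⟩

theorem card_quo (hq : QConj σ q) : Nat.card (X ⧸ center X) = q ^ 2 := by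
  let f : X →* Multiplicative F := MonoidHom.mk' (fun g => .ofAdd (cx g)) fun a b => congrArg _ (h.mx a b)
  rw [show center X = f.ker from Subgroup.ext fun g => h.mem_cen hq, ← hq.card]
  exact Nat.card_congr (QuotientGroup.quotientKerEquivOfSurjective f fun x => h.exx hq x).toEquiv

theorem card (hq : QConj σ q) : Nat.card X = q ^ 3 := by
  rw [card_eq_card_quotient_mul_card_subgroup (center X), h.card_quo hq, h.card_cen hq, pow_succ q 2]

theorem cen_iff (hq : QConj σ q) : g ∈ center X ↔ g * g = 1 := (h.mem_cen hq).trans h.sq_iff.symm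

theorem der (hq : QConj σ q) : center X = commutator X := by
  have t : (2 : F) = 0 := CharTwo.two_eq_zero
  refine le_antisymm (fun z hz => ?_) (commutator_le.2 fun a _ b _ => h.cen (by
    simp only [commutatorElement_def, h.mx, h.xi]; linear_combination (cx a + cx b) * t))
  have z0 := (h.mem_cen hq).1 hz
  obtain ⟨s, hs⟩ := exists_trace_eq hq.ne_id hq.invol (h.fix z0)
  obtain ⟨a, ha⟩ := h.exx hq s
  obtain ⟨b, hb⟩ := h.exx hq 1
  have : z * (b * a) = a * b := h.ext _ _ (by simp [h.mx, z0, add_comm]) (by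
    simp only [h.my, h.mx, z0, ha, hb, map_one]; linear_combination -hs + σ s * t)
  rw [show z = ⁅a, b⁆ by rw [commutatorElement_def, ← this]; group]
  exact commutator_mem_commutator trivial trivial

theorem suz (hq : QConj σ q) [Finite X] {n : ℕ} (hn : q = 2 ^ n) (h4 : 4 ≤ q) : IsSuzukiTwoGroup X := by
  have := hq.finite
  have := Fact.mk Nat.prime_two
  let L := σ.eqLocusField (RingHom.id F)
  have cL : Nat.card L = q := hq.card_fixed
  choose Λ hΛ using fun d : Lˣ => h.lift (RingEquiv.refl F) (fun _ => rfl) (c := d.1.1) (by simp) 0 (by simp) hq.invol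
  have e : ∀ (d : Lˣ) g, cx (Λ d g) = d.1 * cx g ∧ cy (Λ d g) = d.1 * d.1 * cy g := fun d g => by
    have := hΛ d g
    rw [show σ d.1.1 = d.1.1 from d.1.2] at this
    simpa using this
  let f : Lˣ →* MulAut X := MonoidHom.mk' Λ fun a b => MulEquiv.ext fun g => h.ext _ _
    (by simp [(e _ _).1, mul_assoc]) (by simp [(e _ _).2]; ring)
  refine ⟨inferInstance, .of_card (n := n * 3) (by rw [h.card hq, hn, pow_mul]), ?_, ?_, f.range,
    isCyclic_of_surjective _ f.rangeRestrict_surjective, fun x y x1 x2 y1 y2 => ?_⟩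
  · by_contra! c
    obtain ⟨g, e⟩ := h.exx hq 1
    exact one_ne_zero (e.symm.trans ((h.mem_cen hq).1 (mem_center_iff.2 fun k => c k g)))
  · have := Fintype.ofFinite (center X)
    obtain ⟨a, b, c, h1, h2, h3⟩ := Fintype.two_lt_card_iff.1
      (show 2 < Fintype.card (center X) by rw [← Nat.card_eq_fintype_card, h.card_cen hq]; omega)
    exact ⟨a⁻¹ * b, a⁻¹ * c, by simpa using h3, by simpa [inv_mul_eq_one] using h1, (h.cen_iff hq).1 (a⁻¹ * b).2,
      by simpa [inv_mul_eq_one] using h2, (h.cen_iff hq).1 (a⁻¹ * c).2⟩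
  rw [h.sq_iff] at x2 y2
  have n : ∀ x, x ≠ 1 → cx x = 0 → cy x ≠ 0 := fun x h1 h2 c => h1 (h.ext _ _ (by rw [h2, h.x1]) (by rw [c, h.y1]))
  obtain ⟨d, hd⟩ := (Finite.injective_iff_surjective.1 (CharTwo.sq_injective (R := L)))
    (⟨_, h.fix y2⟩ / ⟨_, h.fix x2⟩)
  have hd : d.1 * d.1 * cy x = cy y := by
    rw [← sq, show d.1 ^ 2 = cy y / cy x from congrArg Subtype.val hd, div_mul_cancel₀ _ (n x x1 x2)]
  have d0 : d ≠ 0 := by rintro rfl; exact n y y1 y2 (by simpa using hd.symm)
  refine ⟨⟨_, Units.mk0 d d0, rfl⟩, h.ext _ _ ((e _ _).1.trans (by rw [x2, y2, mul_zero])) ((e _ _).2.trans hd), ?_⟩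
  rintro ⟨_, c, rfl⟩ k
  have := (e c x).2
  rw [show Λ c x = y from k, ← hd, mul_left_inj' (n x x1 x2), ← sq, ← sq] at this
  exact Subtype.ext (congrArg f (Units.ext (Subtype.ext (CharTwo.sq_injective this).symm)))

end UH

end Cfsg.Agent.GO
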